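import Cfsg.Agent.H65.DP.F4Two

/-!
# S2454, `F₄(q)`, `q` a power of three, `p = 5` (helper65)

* `exists_hom_sym` : a homomorphism `SL_n(K) → D.group K` from a table of roots of type `A_{n-1}` with symmetric signs;
* `pe_three` : characteristic three: `h_2(-1)` is a product of two elements of order `5` (computation in `SL_4(3)`).
-/

set_option autoImplicit false
set_option linter.unusedSectionVars false

namespace Cfsg.Agent.H65.DP

open CoxeterSystem Cfsg.Agent.ChevalleyStructure.CoxeterGeom Cfsg.Agent.Tits.Roots Cfsg.Agent.Tits.Core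
  Cfsg.Agent.Nodes.Reps Cfsg.Agent.Nodes.BNOf Cfsg.Agent.Nodes.RGDLib Cfsg.Agent.Nodes.Bruhat
  Cfsg.Agent.Nodes.OppDec Cfsg.Agent.Nodes.LeviDec Cfsg.Agent.Nodes.KindChev Cfsg.Agent.Nodes.ChevCls
  Cfsg.Agent.OddHalf.NI.ModelChev Cfsg.Agent.H514.DP
open Cfsg.Lie Cfsg.Agent.ChevalleyStructure Cfsg.Agent.ChevalleyStructure.Elts
  Cfsg.Agent.ChevalleyStructure.RootVec Cfsg.Agent.ChevalleyStructure.NPerm
  Cfsg.Agent.ChevalleyStructure.CoxeterGeomTypes Cfsg.Agent.Nodes.RGDChev Cfsg.Agent.KFacts.RgdChevCoord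
open Cfsg.Agent.FixBN.FieldRGD (uu vv dd ww)
open Cfsg.Agent.TitsThree.KExcRT Cfsg.Agent.AGraded
open Cfsg.Agent.OddHalf.NI.Mult (up lo nn)
open scoped MatrixGroups

universe u

section

variable {D : ChevalleyDatum} {l : ℕ} {M : CoxeterMatrix (Fin l)} (hp : IsType D l M) {K : Type u} [Field K]

include hp in
theorem exists_hom_sym {n : ℕ} {r : Fin (n + 3) → Fin (n + 3) → ℕ} {s : Fin (n + 3) → Fin (n + 3) → ℤ}
    (ha : RTa D r) (hb : RTb D r s) (hc : RTc D r) (hd : RTd s) (hsym : ∀ i j, i ≠ j → s j i = s i j)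
    (hneg : ∀ i j, i ≠ j → r j i = D.neg (r i j)) :
    ∃ φ : Matrix.SpecialLinearGroup (Fin (n + 3)) K →* ↥(D.group K), ∀ a b (hab : a ≠ b) c,
      φ (Matrix.SpecialLinearGroup.transvection hab c) = xc hp (vec D l (r a b)) ((s a b : K) * c) := by
  let X : Fin (n + 3) → Fin (n + 3) → K → ↥(D.group K) := fun a b c =>
    ⟨xG hp.inList (r a b) ((s a b : K) * c), xG_mem_group hp.inList _ _⟩
  have hX : ∀ a b, a ≠ b → ∀ c, X a b c = xc hp (vec D l (r a b)) ((s a b : K) * c) := by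
    intro a b hab c
    apply Subtype.ext
    rw [coe_xc hp (ha a b hab)]
  have hS := stein (F := K) hp.inList (r := r) (s := s) ha hb hc hd
  have hSt : SteinRel X := by
    refine ⟨?_, ?_, ?_⟩
    · intro i j hij a b
      apply Subtype.ext
      exact hS.add i j hij a b
    · intro i j k l hij hkl hjk hil a b
      apply Subtype.ext
      exact hS.comm i j k l hij hkl hjk hil a b
    · intro i j k hij hjk hik a b
      apply Subtype.ext
      exact hS.br i j k hij hjk hik a b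
  have hH : CTFrame.Torus.HRel X := by
    intro i j hij
    obtain ⟨f, hf1, hf2, -, -, -⟩ := exists_sl hp (K := K) (ha i j hij)
    obtain ⟨ε, hεd⟩ : ∃ ε : K, ε = (s i j : K) := ⟨_, rfl⟩
    have hεK : ε * ε = 1 := by rw [hεd, ← Int.cast_mul, hd i j, Int.cast_one]
    have e1 : ∀ c, X i j c = f (uu (ε * c)) := by
      intro c
      rw [hf1, hX i j hij, hεd]
    have e2 : ∀ c, X j i c = f (vv (ε * c)) := by
      intro c
      rw [hf2, hX j i hij.symm, hneg i j hij, vec_neg hp (ha i j hij), hsym i j hij, hεd]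
    have e3 : ∀ u : K, (hu : u ≠ 0) → CTFrame.Weyl.t X i j u = f (dd u hu) := by
      intro u hu
      unfold CTFrame.Weyl.t CTFrame.Weyl.w
      rw [e1, e1, e2, e2, ← map_mul, ← map_mul, ← map_mul, ← map_mul, ← map_mul]
      congr 1
      apply Subtype.ext
      change (!![1, ε * u; 0, 1] * !![1, 0; ε * -u⁻¹, 1] * !![1, ε * u; 0, 1]) *
        (!![1, ε * -1; 0, 1] * !![1, 0; ε * -(-1)⁻¹, 1] * !![1, ε * -1; 0, 1]) = !![u, 0; 0, u⁻¹]
      have g1 : (!![1, ε * u; 0, 1] * !![1, 0; ε * -u⁻¹, 1] * !![1, ε * u; 0, 1] :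
          Matrix (Fin 2) (Fin 2) K) = !![0, ε * u; ε * -u⁻¹, 0] := by
        have g2 : ε * u * (ε * u⁻¹) = 1 := by
          rw [mul_mul_mul_comm, hεK, mul_inv_cancel₀ hu, one_mul]
        rw [Matrix.mul_fin_two, Matrix.mul_fin_two]
        have g3 : ε * u⁻¹ * (ε * u) = 1 := by
          rw [mul_mul_mul_comm, hεK, inv_mul_cancel₀ hu, one_mul]
        ext a b
        fin_cases a <;> fin_cases b
        · simp [g2]
        · simp [g2]
        · simp
        · simp [g3]
      have g1' : (!![1, ε * -1; 0, 1] * !![1, 0; ε * -(-1)⁻¹, 1] * !![1, ε * -1; 0, 1] :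
          Matrix (Fin 2) (Fin 2) K) = !![0, -ε; ε, 0] := by
        rw [Matrix.mul_fin_two, Matrix.mul_fin_two]
        ext a b
        fin_cases a <;> fin_cases b
        · simp [hεK]
        · simp [hεK]
        · simp
        · simp [hεK]
      rw [g1, g1', Matrix.mul_fin_two]
      ext a b
      fin_cases a <;> fin_cases b
      · simp
        rw [mul_right_comm, hεK, one_mul]
      · simp
      · simp
      · simp
        rw [mul_right_comm, hεK, one_mul]
    intro a b ha0 hb0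
    rw [e3 a ha0, e3 b hb0, e3 (a * b) (mul_ne_zero ha0 hb0), ← map_mul]
    congr 1
    apply Subtype.ext
    change !![a, 0; 0, a⁻¹] * !![b, 0; 0, b⁻¹] = !![a * b, 0; 0, (a * b)⁻¹]
    rw [Matrix.mul_fin_two, mul_inv]
    simp
  obtain ⟨φ, hφ, -⟩ := CTFrame.Hom.exists_hom hSt hH (by simp)
  exact ⟨φ, fun a b hab c => by rw [hφ a b hab c, hX a b hab]⟩

end

/-! ### elements of order five in `SL_4(3)` -/

theorem sL_sym : ∀ i j : Fin 4, i ≠ j → sL j i = sL i j := by decide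

def c0 : SL(4, ZMod 3) := ⟨!![2, 1, 2, 2; 2, 1, 1, 1; 2, 2, 1, 0; 0, 0, 2, 1], by decide +kernel⟩
def c1 : SL(4, ZMod 3) := ⟨!![0, 2, 1, 2; 1, 0, 1, 2; 1, 2, 0, 1; 1, 2, 0, 2], by decide +kernel⟩

theorem fives3 : c0 ^ 5 = 1 ∧ c1 ^ 5 = 1 := by decide +kernel

def tw (a b : Fin 4) (hab : a ≠ b) (c : ZMod 3) : SL(4, ZMod 3) := Matrix.SpecialLinearGroup.transvection hab c

theorem prods3 : (tw 0 1 (by decide) 1 * tw 1 0 (by decide) (-1) * tw 0 1 (by decide) 1) *
    (tw 0 1 (by decide) 1 * tw 1 0 (by decide) (-1) * tw 0 1 (by decide) 1) = c0 * c1 := by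
  decide +kernel

section

variable {K : Type u} [Field K] [CharP K 3]

theorem dd_neg_one (h0 : (-1 : K) ≠ 0) : (dd (-1) h0 : SL(2, K)) = (uu 1 * vv (-1) * uu 1) * (uu 1 * vv (-1) * uu 1) := by
  apply Subtype.ext
  change !![-1, 0; 0, (-1)⁻¹] = (!![1, 1; 0, 1] * !![1, 0; -1, 1] * !![1, 1; 0, 1] : Matrix (Fin 2) (Fin 2) K) *
    (!![1, 1; 0, 1] * !![1, 0; -1, 1] * !![1, 1; 0, 1])
  simp only [Matrix.mul_fin_two]
  ext i j
  fin_cases i <;> fin_cases j <;> simp

/-- **characteristic three**: `h_2(-1)` is a product of two elements of order `5`. -/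
theorem pe_three : PE 5 2 (hc Nodes.KindF.isType 2 (-1 : K)) := by
  obtain ⟨ha, hb, hc, hd, hn⟩ := rL_check
  obtain ⟨φ, hφ⟩ := exists_hom_sym (n := 1) Nodes.KindF.isType (K := K) ha hb hc hd sL_sym hn
  let f : ZMod 3 →+* K := ZMod.castHom (dvd_refl 3) K
  let ψ : SL(4, ZMod 3) →* SL(4, K) := Matrix.SpecialLinearGroup.map f
  have hψ : ∀ a b (hab : a ≠ b) (c : ZMod 3), ψ (tw a b hab c) = Matrix.SpecialLinearGroup.transvection hab (f c) := by
    intro a b hab c
    apply Subtype.ext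
    change ((Matrix.transvection a b c).map f) = Matrix.transvection a b (f c)
    unfold Matrix.transvection
    ext i j
    simp only [Matrix.map_apply, Matrix.add_apply, map_add, Matrix.one_apply, Matrix.single_apply]
    split_ifs <;> simp
  have h3 : vec chevF4 4 25 = sr 2 := vec_simple Nodes.KindF.isType (2 : Fin 4)
  have h3' : vec chevF4 4 22 = -sr 2 := by
    rw [← h3]
    exact vec_neg Nodes.KindF.isType (r := 25) (by decide +kernel)
  have e1 : xc Nodes.KindF.isType (sr 2) (1 : K) = φ (ψ (tw 0 1 (by decide) 1)) := by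
    rw [hψ, hφ, ← h3, map_one]
    have h4 : (sL 0 1 : K) = 1 := by
      show ((1 : ℤ) : K) = 1
      exact Int.cast_one
    rw [h4, one_mul]
    rfl
  have e2 : xc Nodes.KindF.isType (-sr 2) (-1 : K) = φ (ψ (tw 1 0 (by decide) (-1))) := by
    rw [hψ, hφ, ← h3', map_neg, map_one]
    have h4 : (sL 1 0 : K) = 1 := by
      show ((1 : ℤ) : K) = 1
      exact Int.cast_one
    rw [h4, one_mul]
    rfl
  obtain ⟨k0, k1⟩ := fives3
  have h0 : (-1 : K) ≠ 0 := neg_ne_zero.2 one_ne_zero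
  rw [← sl_dd Nodes.KindF.isType 2 (-1 : K) h0, dd_neg_one]
  simp only [map_mul, sl_uu, sl_vv]
  rw [e1, e2, ← map_mul, ← map_mul, ← map_mul, ← map_mul, ← map_mul, ← map_mul, prods3]
  exact PE.map (PE.map ((isPE_five k0).pe.mul (isPE_five k1).pe) ψ) φ

end

end Cfsg.Agent.H65.DP
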