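import Cfsg.Agent.H65.DP.F4Min
import Cfsg.Agent.H65.DP.F4Three
import Cfsg.Agent.H346.DP.ChevNode

/-!
# The nodes of `F₄(q)` (S2454, X6, helper65)

`nodeP_F4` : `p ∣ |F₄(q)|`, `p` not the characteristic: the noncentral elements of the rank one groups of the nodes are
products of four `p`-elements; `nodes_F4` : the form used by helper346.
-/

set_option autoImplicit false
set_option linter.unusedSectionVars false

namespace Cfsg.Agent.H65.DP

open CoxeterSystem Cfsg.Agent.ChevalleyStructure.CoxeterGeom Cfsg.Agent.Tits.Roots Cfsg.Agent.Tits.Core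
  Cfsg.Agent.Tits.RootComb Cfsg.Agent.Nodes.Comb Cfsg.Agent.Nodes.Reps
  Cfsg.Agent.Nodes.BNOf Cfsg.Agent.Nodes.StabComb
  Cfsg.Agent.Nodes.RGDLib Cfsg.Agent.Nodes.Bruhat Cfsg.Agent.Nodes.OppDec
open Cfsg.Agent.Tits.Exchange hiding nn
open Cfsg.Agent.OddHalf.NI.Mult (Coord up lo nn dg)
open Cfsg.Agent.H514.DP (PE IsPE PW)
open Cfsg.Agent.H53.HC (MJ)
open Cfsg.Agent.H175.DP (dc coe_dc)
open Cfsg.Agent.KFacts.RgdBorelTits (Filt)
open Cfsg.Lie Cfsg.Agent.ChevalleyStructure Cfsg.Agent.ChevalleyStructure.CoxeterGeomTypes Cfsg.Agent.Nodes.RGDChev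
  Cfsg.Agent.KFacts.RgdChevCoord
open Cfsg.Agent.OddHalf.NI.ModelChev (sl)
open Cfsg.Agent.H35.ExcIdx (hpF4)
open Cfsg.Agent.H346.DP
open Cfsg.Agent.H65.DP.Min4 (cs4 Mn connOK)

universe u

variable {K : Type u} [Field K] [Fintype K] {r : ℕ} [Fact r.Prime] [CharP K r] {p : ℕ}

theorem levMin_of {L : List (Fin 4)} (hL : connOK L = true) (hne : L ≠ []) (h : Mn K p {j | j ∈ L}) :
    LevMin cs4 hpF4.isCartan (XX chevF4 4 K) {j | j ∈ L} p := by
  refine ⟨?_, Min4.conn_of hL, h.1, h.2⟩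
  obtain ⟨a, ha⟩ := List.exists_mem_of_ne_nil L hne
  exact ⟨a, ha⟩

theorem m01 : CoxeterMatrix.F₄ 0 1 = 3 := rfl
theorem m10 : CoxeterMatrix.F₄ 1 0 = 3 := rfl
theorem m23 : CoxeterMatrix.F₄ 2 3 = 3 := rfl
theorem m32 : CoxeterMatrix.F₄ 3 2 = 3 := rfl

include r in
/-- one short and one long node are enough -/
theorem all_of {m : ℕ} {i j : Fin 4} (hi : i = 0 ∨ i = 1) (hj : j = 2 ∨ j = 3) (h1 : NodeP (XX chevF4 4 K) p m i)
    (h2 : NodeP (XX chevF4 4 K) p m j) (k : Fin 4) : NodeP (XX chevF4 4 K) p m k := by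
  have := finite_W hpF4 cs4
  have R := rgd (K := K) hpF4 cs4 r
  have h0 : NodeP (XX chevF4 4 K) p m 0 ∧ NodeP (XX chevF4 4 K) p m 1 := by
    rcases hi with rfl | rfl
    · exact ⟨h1, NodeP.adj R m01 h1⟩
    · exact ⟨NodeP.adj R m10 h1, h1⟩
  have h3 : NodeP (XX chevF4 4 K) p m 2 ∧ NodeP (XX chevF4 4 K) p m 3 := by
    rcases hj with rfl | rfl
    · exact ⟨h2, NodeP.adj R m23 h2⟩
    · exact ⟨NodeP.adj R m32 h2, h2⟩
  fin_cases k
  · exact h0.1
  · exact h0.2
  · exact h3.1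
  · exact h3.2

section

variable (hp : p.Prime) (hpr : p ≠ r) (hpq : ¬ p ∣ Nat.card K - 1)

include r hp hpr hpq

/-- at least four elements -/
theorem node_four (h4 : 4 ≤ Nat.card K) {J : Set (Fin 4)} (L : LevMin cs4 hpF4.isCartan (XX chevF4 4 K) J p)
    {i : Fin 4} (hi : i ∈ J) : NodeP (XX chevF4 4 K) p 4 i := by
  have := finite_W hpF4 cs4
  have R := rgd (K := K) hpF4 cs4 r
  have C := H162.GaussExc.coord hpF4 (K := K)
  have hF := KFacts.RgdFiltChev.filt (K := K) hpF4 cs4 r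
  obtain ⟨u, hu⟩ := exists_sq_ne_one h4
  have hperf := mj_perfect R (hn_chev hpF4) C (J := J) fun j _ => Or.inl h4
  refine L.nodeP (hT_chev hpF4) (hn_chev hpF4) hF C hperf hp hpr (not_dvd_TT hpF4 r hp hpq) hi
    (z := hc hpF4 i (u : K)) ?_ (not_dvd_orderOf_hc hpF4 r i u) (μ := u ^ 2) hu (fun g => ?_)
  · rw [hc_mem_sl]
    exact KK_le_MJ hi (mem_KK C i _)
  · rw [hc_mem_sl, ← map_inv, ← map_mul, ← map_mul, dg_conj]

/-- two elements -/
theorem node_two (h2 : Nat.card K = 2) (hr : r ≠ 3) {J : Set (Fin 4)}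
    (L : LevMin cs4 hpF4.isCartan (XX chevF4 4 K) J p) (hJ : ∀ j ∈ J, ∃ k ∈ J, CoxeterMatrix.F₄ j k = 3)
    {i : Fin 4} (hi : i ∈ J) : NodeP (XX chevF4 4 K) p 4 i := by
  have := finite_W hpF4 cs4
  have R := rgd (K := K) hpF4 cs4 r
  have C := H162.GaussExc.coord hpF4 (K := K)
  have hF := KFacts.RgdFiltChev.filt (K := K) hpF4 cs4 r
  obtain ⟨j, hj, hij⟩ := hJ i hi
  have hperf := mj_perfect R (hn_chev hpF4) C (J := J) fun j hj => Or.inr (hJ j hj)
  exact L.nodeP_two (hT_chev hpF4) (hn_chev hpF4) hF C hperf hp hpr (not_dvd_TT hpF4 r hp hpq) hi hj hij h2 hr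

/-- three elements -/
theorem node_three (hneg : (-1 : Kˣ) ≠ 1) {J : Set (Fin 4)}
    (L : LevMin cs4 hpF4.isCartan (XX chevF4 4 K) J p)
    (hJ : ∀ j ∈ J, (∃ k ∈ J, CoxeterMatrix.F₄ j k = 3) ∨ ∃ k ∈ J, chevF4.cartan k (chevF4.simple j) = -1)
    {i j : Fin 4} (hi : i ∈ J) (hj : j ∈ J) (hji : chevF4.cartan j (chevF4.simple i) = -1) :
    NodeP (XX chevF4 4 K) p 4 i := by
  have := finite_W hpF4 cs4
  have R := rgd (K := K) hpF4 cs4 r
  have C := H162.GaussExc.coord hpF4 (K := K)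
  have hF := KFacts.RgdFiltChev.filt (K := K) hpF4 cs4 r
  have hneg' : ((-1 : Kˣ) ^ (-1 : ℤ)) ≠ 1 := by
    rw [_root_.zpow_neg_one]
    exact fun h1 => hneg (inv_eq_one.1 h1)
  have hmem : ∀ k ∈ J, hc hpF4 k ((-1 : Kˣ) : K) ∈ MJ cs4 hpF4.isCartan (XX chevF4 4 K) J := by
    intro k hk
    rw [hc_mem_sl]
    exact KK_le_MJ hk (mem_KK C k _)
  have hperf := mj_perfect' R (hn_chev hpF4) C (J := J) fun j hj => by
    rcases hJ j hj with h1 | ⟨k, hk, hkj⟩
    · exact Or.inr (Or.inl h1)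
    · refine Or.inr (Or.inr ⟨_, hmem k hk, _, ?_, hc_conj_sl hpF4 r j k (-1 : Kˣ)⟩)
      rw [hkj]
      exact hneg'
  refine L.nodeP (hT_chev hpF4) (hn_chev hpF4) hF C hperf hp hpr (not_dvd_TT hpF4 r hp hpq) hi
    (hmem j hj) (not_dvd_orderOf_hc hpF4 r j _) (μ := (-1 : Kˣ) ^ chevF4.cartan j (chevF4.simple i)) ?_
    (hc_conj_sl hpF4 r i j _)
  rw [hji]
  exact hneg'

end

theorem cartan_vals : chevF4.cartan ((1 : Fin 4) : ℕ) (chevF4.simple ((0 : Fin 4) : ℕ)) = -1 ∧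
    chevF4.cartan ((3 : Fin 4) : ℕ) (chevF4.simple ((2 : Fin 4) : ℕ)) = -1 ∧
    chevF4.cartan ((2 : Fin 4) : ℕ) (chevF4.simple ((1 : Fin 4) : ℕ)) = -1 ∧
    chevF4.cartan ((2 : Fin 4) : ℕ) (chevF4.simple ((3 : Fin 4) : ℕ)) = -1 := by decide +kernel

theorem hJ01 : ∀ j ∈ ({j | j ∈ ([0, 1] : List (Fin 4))} : Set (Fin 4)),
    ∃ k ∈ ({j | j ∈ ([0, 1] : List (Fin 4))} : Set (Fin 4)), CoxeterMatrix.F₄ j k = 3 := by
  intro j hj
  have hj' : j = 0 ∨ j = 1 := by simpa using hj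
  rcases hj' with rfl | rfl
  · exact ⟨1, by simp, rfl⟩
  · exact ⟨0, by simp, rfl⟩

theorem hJ23 : ∀ j ∈ ({j | j ∈ ([2, 3] : List (Fin 4))} : Set (Fin 4)),
    ∃ k ∈ ({j | j ∈ ([2, 3] : List (Fin 4))} : Set (Fin 4)), CoxeterMatrix.F₄ j k = 3 := by
  intro j hj
  have hj' : j = 2 ∨ j = 3 := by simpa using hj
  rcases hj' with rfl | rfl
  · exact ⟨3, by simp, rfl⟩
  · exact ⟨2, by simp, rfl⟩

theorem hJall : ∀ j ∈ ({j | j ∈ ([0, 1, 2, 3] : List (Fin 4))} : Set (Fin 4)),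
    ∃ k ∈ ({j | j ∈ ([0, 1, 2, 3] : List (Fin 4))} : Set (Fin 4)), CoxeterMatrix.F₄ j k = 3 := by
  intro j hj
  have hj' : j = 0 ∨ j = 1 ∨ j = 2 ∨ j = 3 := by simpa using hj
  rcases hj' with rfl | rfl | rfl | rfl
  · exact ⟨1, by simp, rfl⟩
  · exact ⟨0, by simp, rfl⟩
  · exact ⟨3, by simp, rfl⟩
  · exact ⟨2, by simp, rfl⟩

include r in
theorem nodeP_F4 (hp : p.Prime) (hpr : p ≠ r) (hd : p ∣ Nat.card ↥(chevF4.group K)) (i : Fin 4) :
    NodeP (XX chevF4 4 K) p 4 i := by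
  have hfin := finite_W hpF4 cs4
  have hr : r.Prime := Fact.out
  have hadj : ∀ i : Fin 4, ∃ j, CoxeterMatrix.F₄ i j = 3 := by
    intro i
    fin_cases i
    · exact ⟨1, rfl⟩
    · exact ⟨0, rfl⟩
    · exact ⟨3, rfl⟩
    · exact ⟨2, rfl⟩
  by_cases hpq : p ∣ Nat.card K - 1
  · obtain ⟨j, hj⟩ := hadj i
    exact NodeP.mono (nodeP_torus hpF4 r hp hpq hj) (by norm_num)
  have hpq' : ¬ p ∣ Fintype.card K - 1 := by rwa [← Nat.card_eq_fintype_card]
  have hcases := Min4.cases (r := r) hp hpr hpq' hd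
  obtain ⟨c01, c23, c12, c123, call⟩ := Min4.conn_all
  have hK2 : 2 ≤ Nat.card K := by
    rw [Nat.card_eq_fintype_card]
    exact Fintype.one_lt_card
  obtain ⟨f, -, hf⟩ := FiniteField.card K r
  by_cases h4 : 4 ≤ Nat.card K
  · rcases hcases with ⟨-, h1⟩ | ⟨h1, h2⟩ | ⟨-, h1⟩ | ⟨-, h1⟩ | h1
    · exact all_of (m := 4) (r := r) (Or.inl rfl) (Or.inl rfl)
        (node_four (r := r) hp hpr hpq h4 (levMin_of (Min4.conn_1 0) (by simp) (h1 0)) (by simp))
        (node_four (r := r) hp hpr hpq h4 (levMin_of (Min4.conn_1 2) (by simp) (h1 2)) (by simp)) i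
    · exact all_of (m := 4) (r := r) (Or.inl rfl) (Or.inl rfl)
        (node_four (r := r) hp hpr hpq h4 (levMin_of c01 (by simp) h1) (by simp))
        (node_four (r := r) hp hpr hpq h4 (levMin_of c23 (by simp) h2) (by simp)) i
    · exact all_of (m := 4) (r := r) (Or.inr rfl) (Or.inl rfl)
        (node_four (r := r) hp hpr hpq h4 (levMin_of c12 (by simp) h1) (by simp))
        (node_four (r := r) hp hpr hpq h4 (levMin_of c12 (by simp) h1) (by simp)) i
    · exact all_of (m := 4) (r := r) (Or.inr rfl) (Or.inl rfl)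
        (node_four (r := r) hp hpr hpq h4 (levMin_of c123 (by simp) h1) (by simp))
        (node_four (r := r) hp hpr hpq h4 (levMin_of c123 (by simp) h1) (by simp)) i
    · exact all_of (m := 4) (r := r) (Or.inr rfl) (Or.inl rfl)
        (node_four (r := r) hp hpr hpq h4 (levMin_of call (by simp) h1) (by simp))
        (node_four (r := r) hp hpr hpq h4 (levMin_of call (by simp) h1) (by simp)) i
  have h5 : Nat.card K = 2 ∨ Nat.card K = 3 := by omega
  rcases h5 with h5 | h5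
  · -- two elements
    have hr2 : r = 2 := by
      rw [Nat.card_eq_fintype_card, hf] at h5
      exact (Nat.prime_dvd_prime_iff_eq hr Nat.prime_two).1 (h5 ▸ dvd_pow_self r f.ne_zero)
    subst hr2
    have h5' : Fintype.card K = 2 := by rwa [← Nat.card_eq_fintype_card]
    rw [h5'] at hcases
    rcases hcases with ⟨h1, -⟩ | ⟨h1, h2⟩ | ⟨h1, -⟩ | ⟨⟨h1, h2, h3⟩, -⟩ | h1
    · have hp3 : p = 3 := (Nat.prime_dvd_prime_iff_eq hp Nat.prime_three).1 h1
      subst hp3
      obtain ⟨j, hj⟩ := hadj i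
      exact (nodeP_three (R := rgd (K := K) hpF4 cs4 2) (H162.GaussExc.coord hpF4 (K := K)) hj h5).mono (by norm_num)
    · exact all_of (m := 4) (r := 2) (Or.inl rfl) (Or.inl rfl)
        (node_two (r := 2) hp hpr hpq h5 (by norm_num) (levMin_of c01 (by simp) h1) hJ01 (by simp))
        (node_two (r := 2) hp hpr hpq h5 (by norm_num) (levMin_of c23 (by simp) h2) hJ23 (by simp)) i
    · have hp5 : p = 5 := (Nat.prime_dvd_prime_iff_eq hp Nat.prime_five).1 h1
      subst hp5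
      have e := two_elts h5
      have C := H162.GaussExc.coord hpF4 (K := K)
      exact all_of (m := 4) (r := 2) (Or.inl rfl) (Or.inr rfl)
        ((NodeP.of_nodes_two C (i := (0 : Fin 4)) (units_of_two h5) (fun t => pe_short e t)).mono (by norm_num))
        ((NodeP.of_nodes_two C (i := (3 : Fin 4)) (units_of_two h5) (fun t => pe_long e t)).mono (by norm_num)) i
    · exfalso
      have h6 : p ∣ 3 * 7 := h1
      rcases hp.dvd_mul.1 h6 with h7 | h7
      · exact h2 h7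
      · exact h3 h7
    · exact all_of (m := 4) (r := 2) (Or.inl rfl) (Or.inl rfl)
        (node_two (r := 2) hp hpr hpq h5 (by norm_num) (levMin_of call (by simp) h1) hJall (by simp))
        (node_two (r := 2) hp hpr hpq h5 (by norm_num) (levMin_of call (by simp) h1) hJall (by simp)) i
  · -- three elements
    have hr3 : r = 3 := by
      rw [Nat.card_eq_fintype_card, hf] at h5
      exact (Nat.prime_dvd_prime_iff_eq hr Nat.prime_three).1 (h5 ▸ dvd_pow_self r f.ne_zero)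
    subst hr3
    have h5' : Fintype.card K = 3 := by rwa [← Nat.card_eq_fintype_card]
    have hneg : (-1 : Kˣ) ≠ 1 := by
      intro h1
      have h2 : (-1 : K) = 1 := by
        have := congrArg Units.val h1
        simpa using this
      have h3 : (2 : K) = 0 := by linear_combination -h2
      have h7 : (3 : K) = 0 := by
        have := CharP.cast_eq_zero K 3
        exact_mod_cast this
      have h8 : (1 : K) = 0 := by linear_combination h7 - h3
      exact one_ne_zero h8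
    obtain ⟨k10, k32, k21, k23⟩ := cartan_vals
    rw [h5'] at hcases hpq'
    rcases hcases with ⟨h1, -⟩ | ⟨h1, h2⟩ | ⟨h1, -⟩ | ⟨-, h1⟩ | h1
    · exfalso
      have h6 : p ∣ 2 * 2 := h1
      rcases hp.dvd_mul.1 h6 with h7 | h7
      · exact hpq' h7
      · exact hpq' h7
    · exact all_of (m := 4) (r := 3) (Or.inl rfl) (Or.inl rfl)
        (node_three (r := 3) hp hpr hpq hneg (levMin_of c01 (by simp) h1) (fun j hj => Or.inl (hJ01 j hj))
          (by simp) (j := 1) (by simp) k10)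
        (node_three (r := 3) hp hpr hpq hneg (levMin_of c23 (by simp) h2) (fun j hj => Or.inl (hJ23 j hj))
          (by simp) (j := 3) (by simp) k32) i
    · have hp5 : p = 5 := by
        have h6 : p ∣ 2 * 5 := h1
        rcases hp.dvd_mul.1 h6 with h7 | h7
        · exact absurd h7 hpq'
        · exact (Nat.prime_dvd_prime_iff_eq hp Nat.prime_five).1 h7
      subst hp5
      have C := H162.GaussExc.coord hpF4 (K := K)
      have hpe : PE 5 2 (hc hpF4 2 ((-1 : Kˣ) : K)) := pe_three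
      have hneg' : ((-1 : Kˣ) ^ (-1 : ℤ)) ≠ 1 := by
        rw [_root_.zpow_neg_one]
        exact fun h1 => hneg (inv_eq_one.1 h1)
      exact all_of (m := 4) (r := 3) (Or.inr rfl) (Or.inr rfl)
        (NodeP.of_act C (by rw [k21]; exact hneg') (hc_conj_sl hpF4 3 1 2 (-1 : Kˣ)) hpe)
        (NodeP.of_act C (by rw [k23]; exact hneg') (hc_conj_sl hpF4 3 3 2 (-1 : Kˣ)) hpe) i
    · have hJ : ∀ j ∈ ({j | j ∈ ([1, 2, 3] : List (Fin 4))} : Set (Fin 4)),
          (∃ k ∈ ({j | j ∈ ([1, 2, 3] : List (Fin 4))} : Set (Fin 4)), CoxeterMatrix.F₄ j k = 3) ∨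
          ∃ k ∈ ({j | j ∈ ([1, 2, 3] : List (Fin 4))} : Set (Fin 4)), chevF4.cartan k (chevF4.simple j) = -1 := by
        intro j hj
        have hj' : j = 1 ∨ j = 2 ∨ j = 3 := by simpa using hj
        rcases hj' with rfl | rfl | rfl
        · exact Or.inr ⟨2, by simp, k21⟩
        · exact Or.inl ⟨3, by simp, rfl⟩
        · exact Or.inl ⟨2, by simp, rfl⟩
      exact all_of (m := 4) (r := 3) (Or.inr rfl) (Or.inr rfl)
        (node_three (r := 3) hp hpr hpq hneg (levMin_of c123 (by simp) h1) hJ (by simp) (j := 2) (by simp) k21)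
        (node_three (r := 3) hp hpr hpq hneg (levMin_of c123 (by simp) h1) hJ (by simp) (j := 2) (by simp) k23) i
    · exact all_of (m := 4) (r := 3) (Or.inr rfl) (Or.inr rfl)
        (node_three (r := 3) hp hpr hpq hneg (levMin_of call (by simp) h1) (fun j hj => Or.inl (hJall j hj))
          (by simp) (j := 2) (by simp) k21)
        (node_three (r := 3) hp hpr hpq hneg (levMin_of call (by simp) h1) (fun j hj => Or.inl (hJall j hj))
          (by simp) (j := 2) (by simp) k23) i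

theorem nodes_F4 {K : Type} [Field K] [Fintype K] {r : ℕ} [Fact r.Prime] [CharP K r] {p : ℕ} (hp : p.Prime)
    (hpr : p ≠ r) (hd : p ∣ Nat.card ↥(chevF4.group K)) :
    ∃ m : Fin 4 → ℕ, m 0 + m 1 + m 2 + m 3 ≤ 35 ∧ ∀ (i : Fin 4) (t : K),
      H514.DP.PE p (m i) (OddHalf.NI.ModelChev.sl Nodes.KindF.isType i (OddHalf.NI.Mult.up t * OddHalf.NI.Mult.nn 1)) := by
  have := finite_W hpF4 cs4
  exact ⟨fun _ => 4, by norm_num, fun i t => (nodeP_F4 (r := r) hp hpr hd i).nodes (rgd (K := K) hpF4 cs4 r)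
    (H162.GaussExc.coord hpF4 (K := K)) t⟩

end Cfsg.Agent.H65.DP
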