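import Cfsg.Agent.H134.StrP.Tab
import Cfsg.Agent.H175.DP.Min
import Cfsg.Agent.H169.DP.LeviGow

/-!
# Minimal sets of nodes in `F₄(q)` (S2454, X6, helper65)

`cases` : `p ∣ |F₄(q)|` a prime, `p ≠ r`, `p ∤ q - 1`: one of the sets `{i}` (all `i`, `p ∣ q + 1`), `{0,1}` and `{2,3}`,
`{1,2}` (`p ∣ q² + 1`), `{1,2,3}`, all nodes is minimal with `p ∣ |M_J|`.
-/

set_option autoImplicit false
set_option linter.unusedSectionVars false

namespace Cfsg.Agent.H65.DP.Min4

open CoxeterSystem Cfsg.Agent.ChevalleyStructure.CoxeterGeom Cfsg.Agent.Tits.Roots Cfsg.Agent.Tits.Core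
  Cfsg.Agent.Tits.RootComb Cfsg.Agent.Nodes.Comb Cfsg.Agent.Nodes.Reps Cfsg.Agent.Nodes.BNOf
  Cfsg.Agent.Nodes.StabComb Cfsg.Agent.Nodes.Bruhat Cfsg.Agent.Nodes.LeviDec Cfsg.Agent.H35.Poin
  Cfsg.Agent.H35.PoinNum Cfsg.Agent.H35.ExcIdx Cfsg.Agent.H134.StrP Cfsg.Agent.H53.HC
open Cfsg.Lie Cfsg.Agent.ChevalleyStructure Cfsg.Agent.ChevalleyStructure.Elts
  Cfsg.Agent.ChevalleyStructure.RootVec Cfsg.Agent.ChevalleyStructure.RootVecTab
  Cfsg.Agent.ChevalleyStructure.NPerm Cfsg.Agent.ChevalleyStructure.CoxeterGeomTypes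
open Cfsg.Agent.Nodes Cfsg.Agent.Nodes.RGDChev

universe u

section gen

variable {I W Y : Type*} [Fintype I] [DecidableEq I] [Group W] [Group Y] {M : CoxeterMatrix I}
  {cs : CoxeterSystem M W} {A : I → I → ℤ} {h : IsCartan M A} {r : ℕ} {T : Subgroup Y} {n : I → Y}
  {X : (I → ℤ) → Subgroup Y}

theorem MJ_mono {J J' : Set I} (hJ : J ⊆ J') : MJ cs h X J ≤ MJ cs h X J' :=
  RGD.Sup_le fun _ hx => RGD.le_Sup ⟨hx.1, fun k hk => hx.2 k fun h1 => hk (hJ h1)⟩

theorem MJ_le_PJ (J : Set I) : MJ cs h X J ≤ PJ cs h T X J := (MJ_le_LJ J).trans le_sup_left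

theorem dvd_MJ_iff [Finite W] [Finite Y] [Fact r.Prime] (R : RGD cs h r T n X) {p : ℕ} (hp : p.Prime) (hpr : p ≠ r)
    (hpT : ¬ p ∣ Nat.card T) {J : Set I} {N : ℕ}
    (hN : Nat.card ↥(PJ cs h T X J) = N * Nat.card ↥(RGD.B cs h T X)) :
    p ∣ Nat.card (MJ cs h X J) ↔ p ∣ N := by
  constructor
  · intro h1
    have h2 := h1.trans (Subgroup.card_dvd_of_le (MJ_le_PJ (cs := cs) (h := h) (T := T) (X := X) J))
    rw [hN] at h2
    exact (hp.dvd_mul.1 h2).resolve_right (H169.DP.not_dvd_card_B R hp hpr hpT)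
  · intro h1
    by_contra h2
    apply H169.DP.not_dvd_card_PJ R hp hpr hpT h2
    rw [hN]
    exact Dvd.dvd.mul_right h1 _

end gen

/-- adjacent or equal nodes -/
def adjB (a b : Fin 4) : Bool := decide (CoxeterMatrix.F₄ a b ≠ 2)

/-- connectedness of lists of nodes -/
def connOK (L : List (Fin 4)) : Bool :=
  decide (∀ S : Fin 4 → Bool, (∀ a, S a = true → a ∈ L) → (∃ a, S a = true) → (∃ b, b ∈ L ∧ S b = false) →
    ∃ a, S a = true ∧ ∃ b, b ∈ L ∧ S b = false ∧ adjB a b = true)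

theorem conn_of {L : List (Fin 4)} (hL : connOK L = true) :
    ∀ S ⊆ ({j | j ∈ L} : Set (Fin 4)), S.Nonempty → S ≠ {j | j ∈ L} →
      ∃ a ∈ S, ∃ b ∈ ({j | j ∈ L} : Set (Fin 4)), b ∉ S ∧ CoxeterMatrix.F₄ a b ≠ 2 := by
  classical
  intro S hS hne hSL
  have h1 := of_decide_eq_true hL
  have h2 : ∃ b ∈ L, b ∉ S := by
    by_contra hcon
    push Not at hcon
    exact hSL (Set.Subset.antisymm hS hcon)
  obtain ⟨b, hb, hbS⟩ := h2
  obtain ⟨a0, ha0⟩ := hne
  obtain ⟨a, ha, c, hc, hcS, h3⟩ := h1 (fun a => decide (a ∈ S)) (fun a ha => hS (of_decide_eq_true ha))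
    ⟨a0, decide_eq_true ha0⟩ ⟨b, hb, decide_eq_false hbS⟩
  exact ⟨a, of_decide_eq_true ha, c, hc, of_decide_eq_false hcS, of_decide_eq_true h3⟩

theorem conn_1 (i : Fin 4) : connOK [i] = true := by
  revert i
  decide +kernel

theorem conn_all : connOK [0, 1] = true ∧ connOK [2, 3] = true ∧ connOK [1, 2] = true ∧ connOK [1, 2, 3] = true ∧
    connOK [0, 1, 2, 3] = true := by decide +kernel

variable (K : Type u) [Field K] [Fintype K]

/-- the Coxeter system -/
abbrev cs4 : CoxeterSystem CoxeterMatrix.F₄ CoxeterMatrix.F₄.Group := CoxeterMatrix.F₄.toCoxeterSystem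

/-- the groups `M_J` of `F₄(K)` -/
abbrev M4 (J : Set (Fin 4)) : Subgroup ↥(chevF4.group K) := MJ cs4 hpF4.isCartan (XX chevF4 4 K) J

/-- minimality with `p ∣ |M_J|` -/
def Mn (p : ℕ) (J : Set (Fin 4)) : Prop :=
  p ∣ Nat.card (M4 K J) ∧ ∀ S, S ⊂ J → ¬ p ∣ Nat.card (M4 K S)

variable {K}

theorem Mn.of_list {p : ℕ} {L : List (Fin 4)} (h1 : p ∣ Nat.card (M4 K {j | j ∈ L}))
    (h2 : ∀ k ∈ L, ¬ p ∣ Nat.card (M4 K {j | j ∈ L ∧ j ≠ k})) : Mn K p {j | j ∈ L} := by
  refine ⟨h1, fun S hS hd => ?_⟩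
  obtain ⟨k, hk, hkS⟩ := Set.exists_of_ssubset hS
  refine h2 k hk (hd.trans (Subgroup.card_dvd_of_le (MJ_mono fun j hj => ⟨hS.1 hj, ?_⟩)))
  rintro rfl
  exact hkS hj

/-! ### the orders of the parabolic subgroups -/

abbrev A4 : Fin 4 → Fin 4 → ℤ := cartanOf chevF4 4

theorem tab_12 : Tab A4 [1, 2] 1 [(![0, 1, 0, 0], 0), (![1, -1, 2, 0], 1), (![1, 1, -2, 2], 2), (![2, -1, 0, 2], 3)] :=
  Tab.of_check (by decide +kernel)

theorem tab_123 : Tab A4 [1, 2, 3] 3 [(![0, 0, 0, 1], 0), (![0, 0, 1, -1], 1), (![0, 1, -1, 0], 2), (![1, -1, 1, 0], 3),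
    (![1, 0, -1, 1], 4), (![1, 0, 0, -1], 5)] := Tab.of_check (by decide +kernel)

theorem tab_012 : Tab A4 [0, 1, 2] 0 [(![1, 0, 0, 0], 0), (![-1, 1, 0, 0], 1), (![0, -1, 2, 0], 2), (![0, 1, -2, 2], 3),
    (![1, -1, 0, 2], 4), (![-1, 0, 0, 2], 5)] := Tab.of_check (by decide +kernel)

theorem path_1 (i : Fin 4) : PathOK CoxeterMatrix.F₄ [i] [i] [] 0 := by
  revert i
  intro i
  fin_cases i <;> constructor <;> decide +kernel

theorem path_01 : PathOK CoxeterMatrix.F₄ [0, 1] [0, 1] [] 0 := by constructor <;> decide +kernel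
theorem path_23 : PathOK CoxeterMatrix.F₄ [2, 3] [2, 3] [] 0 := by constructor <;> decide +kernel
theorem path_13 : PathOK CoxeterMatrix.F₄ [1, 3] [3] [1] 0 := by constructor <;> decide +kernel
theorem path_013 : PathOK CoxeterMatrix.F₄ [0, 1, 3] [3] [0, 1] 0 := by constructor <;> decide +kernel
theorem path_023 : PathOK CoxeterMatrix.F₄ [0, 2, 3] [0] [2, 3] 0 := by constructor <;> decide +kernel

variable {r : ℕ} [Fact r.Prime] [CharP K r]

variable (K) in
/-- `|P_J| = N |B|` -/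
def PN (L : List (Fin 4)) (N : ℕ) : Prop :=
  Nat.card ↥(PJ cs4 hpF4.isCartan (TT chevF4 K) (XX chevF4 4 K) {j | j ∈ L}) =
    N * Nat.card ↥(RGD.B cs4 hpF4.isCartan (TT chevF4 K) (XX chevF4 4 K))

theorem size (i : Fin 4) : Nat.card (XX chevF4 4 K (sr i)) = Fintype.card K := by
  rw [card_XX hpF4 K cs4 (isRoot_sr _ _ i), Nat.card_eq_fintype_card]

theorem FA1 (q : ℕ) : FA 1 q = q + 1 := by
  simp [FA, Finset.sum_range_succ]
  ring

theorem FA2 (q : ℕ) : FA 2 q = (q + 1) * (q ^ 2 + q + 1) := by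
  simp [FA, Finset.prod_range_succ, Finset.sum_range_succ]
  ring

include r

theorem pn_1 (i : Fin 4) : PN K [i] (Fintype.card K + 1) := by
  have hfin := finite_W hpF4 cs4
  have h1 := card_step (rgd (K := K) hpF4 cs4 r) (path_1 i) (fun i _ => size i) (card_nil (rgd (K := K) hpF4 cs4 r))
  rw [List.length_singleton, FA1, mul_one] at h1
  exact h1

theorem pn_01 : PN K [0, 1] ((Fintype.card K + 1) * (Fintype.card K ^ 2 + Fintype.card K + 1)) := by
  have hfin := finite_W hpF4 cs4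
  have h1 := card_step (rgd (K := K) hpF4 cs4 r) path_01 (fun i _ => size i) (card_nil (rgd (K := K) hpF4 cs4 r))
  rw [show ([0, 1] : List (Fin 4)).length = 2 from rfl, FA2, mul_one] at h1
  exact h1

theorem pn_23 : PN K [2, 3] ((Fintype.card K + 1) * (Fintype.card K ^ 2 + Fintype.card K + 1)) := by
  have hfin := finite_W hpF4 cs4
  have h1 := card_step (rgd (K := K) hpF4 cs4 r) path_23 (fun i _ => size i) (card_nil (rgd (K := K) hpF4 cs4 r))
  rw [show ([2, 3] : List (Fin 4)).length = 2 from rfl, FA2, mul_one] at h1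
  exact h1

theorem pn_13 : PN K [1, 3] ((Fintype.card K + 1) * (Fintype.card K + 1)) := by
  have hfin := finite_W hpF4 cs4
  have h1 := card_step (rgd (K := K) hpF4 cs4 r) path_13 (fun i _ => size i) (pn_1 (r := r) 1)
  rw [List.length_singleton, FA1] at h1
  exact h1

theorem pn_013 : PN K [0, 1, 3] ((Fintype.card K + 1) * ((Fintype.card K + 1) * (Fintype.card K ^ 2 + Fintype.card K + 1))) := by
  have hfin := finite_W hpF4 cs4
  have h1 := card_step (rgd (K := K) hpF4 cs4 r) path_013 (fun i _ => size i) (pn_01 (r := r))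
  rw [List.length_singleton, FA1] at h1
  exact h1

theorem pn_023 : PN K [0, 2, 3] ((Fintype.card K + 1) * ((Fintype.card K + 1) * (Fintype.card K ^ 2 + Fintype.card K + 1))) := by
  have hfin := finite_W hpF4 cs4
  have h1 := card_step (rgd (K := K) hpF4 cs4 r) path_023 (fun i _ => size i) (pn_23 (r := r))
  rw [List.length_singleton, FA1] at h1
  exact h1

theorem pn_12 : PN K [1, 2] ((Fintype.card K + 1) * (Fintype.card K ^ 2 + 1) * (Fintype.card K + 1)) := by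
  have hfin := finite_W hpF4 cs4
  have h1 := card_tab_step (rgd (K := K) hpF4 cs4 r) tab_12 (fun i _ => size i) (J' := [2]) (by decide) (pn_1 (r := r) 2)
  unfold PN
  rw [h1]
  congr 1
  congr 1
  simp
  ring

theorem pn_123 : PN K [1, 2, 3] ((Fintype.card K + 1) * (Fintype.card K ^ 4 + Fintype.card K ^ 2 + 1) *
    ((Fintype.card K + 1) * (Fintype.card K ^ 2 + 1) * (Fintype.card K + 1))) := by
  have hfin := finite_W hpF4 cs4
  have h1 := card_tab_step (rgd (K := K) hpF4 cs4 r) tab_123 (fun i _ => size i) (J' := [1, 2]) (by decide)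
    (pn_12 (r := r))
  unfold PN
  rw [h1]
  congr 1
  congr 1
  simp
  ring

theorem pn_012 : PN K [0, 1, 2] ((Fintype.card K + 1) * (Fintype.card K ^ 4 + Fintype.card K ^ 2 + 1) *
    ((Fintype.card K + 1) * (Fintype.card K ^ 2 + 1) * (Fintype.card K + 1))) := by
  have hfin := finite_W hpF4 cs4
  have h1 := card_tab_step (rgd (K := K) hpF4 cs4 r) tab_012 (fun i _ => size i) (J' := [1, 2]) (by decide)
    (pn_12 (r := r))
  unfold PN
  rw [h1]
  congr 1
  congr 1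
  simp
  ring

/-! ### minimal sets -/

section main

variable {p : ℕ} (hp : p.Prime) (hpr : p ≠ r) (hpq : ¬ p ∣ Fintype.card K - 1)

omit [Fact r.Prime] [CharP K r] r in
include hp hpq in
theorem not_dvd_TT : ¬ p ∣ Nat.card (TT chevF4 K) := by
  have h1 : Nat.card (TT chevF4 K) = Nat.card (chevF4.diagonalSubgroup K) :=
    Nat.card_congr (Subgroup.subgroupOfEquivOfLe (diagonal_le_group hpF4.inList K)).toEquiv
  have h2 : 1 * Nat.card (chevF4.diagonalSubgroup K) = (Fintype.card K - 1) ^ chevF4.rank :=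
    Cfsg.Agent.S1035.result rfl (chevF4, 1) (by simp)
  rw [h1, ← one_mul (Nat.card _), h2]
  intro h3
  exact hpq (hp.dvd_of_dvd_pow h3)

include hp hpr hpq

theorem iff_of {L : List (Fin 4)} {N : ℕ} (hN : PN K L N) : p ∣ Nat.card (M4 K {j | j ∈ L}) ↔ p ∣ N := by
  have hfin := finite_W hpF4 cs4
  exact dvd_MJ_iff (rgd (K := K) hpF4 cs4 r) hp hpr (not_dvd_TT hp hpq) hN

theorem key {L L' : List (Fin 4)} {N : ℕ} {k : Fin 4} (h1 : PN K L N) (h2 : ¬ p ∣ N)
    (h3 : ∀ j, j ∈ L ↔ j ∈ L' ∧ j ≠ k) : ¬ p ∣ Nat.card (M4 K {j | j ∈ L' ∧ j ≠ k}) := by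
  have h4 : ({j | j ∈ L' ∧ j ≠ k} : Set (Fin 4)) = {j | j ∈ L} := by
    ext j
    exact (h3 j).symm
  rw [h4, iff_of hp hpr hpq h1]
  exact h2

/-- **The minimal sets of nodes.** -/
theorem cases (hd : p ∣ Nat.card ↥(chevF4.group K)) :
    (p ∣ Fintype.card K + 1 ∧ ∀ i, Mn K p {j | j ∈ ([i] : List (Fin 4))}) ∨
      (Mn K p {j | j ∈ ([0, 1] : List (Fin 4))} ∧ Mn K p {j | j ∈ ([2, 3] : List (Fin 4))}) ∨
      (p ∣ Fintype.card K ^ 2 + 1 ∧ Mn K p {j | j ∈ ([1, 2] : List (Fin 4))}) ∨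
      ((p ∣ Fintype.card K ^ 4 + Fintype.card K ^ 2 + 1 ∧ ¬ p ∣ Fintype.card K + 1 ∧
        ¬ p ∣ Fintype.card K ^ 2 + Fintype.card K + 1) ∧ Mn K p {j | j ∈ ([1, 2, 3] : List (Fin 4))}) ∨
      Mn K p {j | j ∈ ([0, 1, 2, 3] : List (Fin 4))} := by
  have hfin := finite_W hpF4 cs4
  have h0 : PN K [] 1 := card_nil (rgd (K := K) hpF4 cs4 r)
  have h01 : ¬ p ∣ 1 := fun h => hp.one_lt.ne' (Nat.dvd_one.1 h)
  have hmul : ∀ {a b : ℕ}, ¬ p ∣ a → ¬ p ∣ b → ¬ p ∣ a * b := fun ha hb h => (hp.dvd_mul.1 h).elim ha hb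
  by_cases ha : p ∣ Fintype.card K + 1
  · refine Or.inl ⟨ha, fun i => Mn.of_list ((iff_of hp hpr hpq (pn_1 (r := r) i)).2 ha) fun k hk => ?_⟩
    obtain rfl := List.mem_singleton.1 hk
    refine key hp hpr hpq (L := []) h0 h01 fun j => ?_
    simp
  right
  by_cases hb : p ∣ Fintype.card K ^ 2 + Fintype.card K + 1
  · refine Or.inl ⟨Mn.of_list ((iff_of hp hpr hpq (pn_01 (r := r))).2 (Dvd.dvd.mul_left hb _)) fun k hk => ?_,
      Mn.of_list ((iff_of hp hpr hpq (pn_23 (r := r))).2 (Dvd.dvd.mul_left hb _)) fun k hk => ?_⟩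
    · simp only [List.mem_cons, List.not_mem_nil, or_false] at hk
      rcases hk with rfl | rfl
      · exact key hp hpr hpq (pn_1 (r := r) 1) ha (by decide)
      · exact key hp hpr hpq (pn_1 (r := r) 0) ha (by decide)
    · simp only [List.mem_cons, List.not_mem_nil, or_false] at hk
      rcases hk with rfl | rfl
      · exact key hp hpr hpq (pn_1 (r := r) 3) ha (by decide)
      · exact key hp hpr hpq (pn_1 (r := r) 2) ha (by decide)
  right
  by_cases hc : p ∣ Fintype.card K ^ 2 + 1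
  · refine Or.inl ⟨hc, Mn.of_list ((iff_of hp hpr hpq (pn_12 (r := r))).2
      (Dvd.dvd.mul_right (Dvd.dvd.mul_left hc _) _)) fun k hk => ?_⟩
    simp only [List.mem_cons, List.not_mem_nil, or_false] at hk
    rcases hk with rfl | rfl
    · exact key hp hpr hpq (pn_1 (r := r) 2) ha (by decide)
    · exact key hp hpr hpq (pn_1 (r := r) 1) ha (by decide)
  right
  by_cases he : p ∣ Fintype.card K ^ 4 + Fintype.card K ^ 2 + 1
  · refine Or.inl ⟨⟨he, ha, hb⟩, Mn.of_list ((iff_of hp hpr hpq (pn_123 (r := r))).2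
      (Dvd.dvd.mul_right (Dvd.dvd.mul_left he _) _)) fun k hk => ?_⟩
    simp only [List.mem_cons, List.not_mem_nil, or_false] at hk
    rcases hk with rfl | rfl | rfl
    · exact key hp hpr hpq (pn_23 (r := r)) (hmul ha hb) (by decide)
    · exact key hp hpr hpq (pn_13 (r := r)) (hmul ha ha) (by decide)
    · exact key hp hpr hpq (pn_12 (r := r)) (hmul (hmul ha hc) ha) (by decide)
  right
  refine Mn.of_list ?_ fun k hk => ?_
  · have h1 : ({j | j ∈ ([0, 1, 2, 3] : List (Fin 4))} : Set (Fin 4)) = Set.univ := by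
      ext j
      simp only [Set.mem_ofPred_eq, Set.mem_univ, iff_true]
      revert j
      decide
    rw [h1, M4, H175.DP.MJ_univ, G1_eq_top hpF4, Subgroup.card_top]
    exact hd
  · simp only [List.mem_cons, List.not_mem_nil, or_false] at hk
    rcases hk with rfl | rfl | rfl | rfl
    · exact key hp hpr hpq (pn_123 (r := r)) (hmul (hmul ha he) (hmul (hmul ha hc) ha)) (by decide)
    · exact key hp hpr hpq (pn_023 (r := r)) (hmul ha (hmul ha hb)) (by decide)
    · exact key hp hpr hpq (pn_013 (r := r)) (hmul ha (hmul ha hb)) (by decide)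
    · exact key hp hpr hpq (pn_012 (r := r)) (hmul (hmul ha he) (hmul (hmul ha hc) ha)) (by decide)

end main

end Cfsg.Agent.H65.DP.Min4
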