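import Cfsg.Agent.H162.GaussExcMain
import Cfsg.Agent.H514.DP.Core
import Cfsg.Agent.S1098
import Cfsg.Agent.OddHalf.NI.Mult.Torus

/-!
# S2454, `F₄(2)`, `p = 5` (helper65)

* `exists_hom_two` : characteristic two: a homomorphism `SL_n(K) → D.group K` from a table of roots of type `A_{n-1}`;
* `pe_long` : `F₄(2)`: the elements `x_3(t) n_3` of the long node `3` are products of at most three elements of order `5`
  (computation in `SL_4(2)`);
* `pe_short` : the same for the short node `0`, by the graph automorphism.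
-/

set_option autoImplicit false
set_option linter.unusedSectionVars false

namespace Cfsg.Agent.H65.DP

open CoxeterSystem Cfsg.Agent.ChevalleyStructure.CoxeterGeom Cfsg.Agent.Tits.Roots Cfsg.Agent.Tits.Core
  Cfsg.Agent.Nodes.Reps Cfsg.Agent.Nodes.BNOf Cfsg.Agent.Nodes.RGDLib Cfsg.Agent.Nodes.Bruhat
  Cfsg.Agent.Nodes.OppDec Cfsg.Agent.Nodes.LeviDec Cfsg.Agent.Nodes.KindChev Cfsg.Agent.Nodes.ChevCls
  Cfsg.Agent.OddHalf.NI.ModelChev Cfsg.Agent.H514.DP
open Cfsg.Lie Cfsg.Agent.ChevalleyStructure Cfsg.Agent.ChevalleyStructure.Elts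
  Cfsg.Agent.ChevalleyStructure.RootVec Cfsg.Agent.ChevalleyStructure.NPerm
  Cfsg.Agent.ChevalleyStructure.CoxeterGeomTypes Cfsg.Agent.Nodes.RGDChev Cfsg.Agent.KFacts.RgdChevCoord
open Cfsg.Agent.FixBN.FieldRGD (uu vv dd ww)
open Cfsg.Agent.TitsThree.KExcRT Cfsg.Agent.AGraded
open Cfsg.Agent.OddHalf.NI.Mult (up lo nn)
open scoped MatrixGroups

universe u

section

variable {D : ChevalleyDatum} {l : ℕ} {M : CoxeterMatrix (Fin l)} (hp : IsType D l M) {K : Type u} [Field K]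

theorem cast_sign [CharP K 2] {ε : ℤ} (hε : ε * ε = 1) : (ε : K) = 1 := by
  rcases mul_self_eq_one_iff.1 hε with rfl | rfl
  · exact Int.cast_one
  · rw [Int.cast_neg, Int.cast_one]
    exact CharTwo.neg_eq 1

include hp in
theorem exists_hom_two [CharP K 2] {n : ℕ} {r : Fin (n + 3) → Fin (n + 3) → ℕ} {s : Fin (n + 3) → Fin (n + 3) → ℤ}
    (ha : RTa D r) (hb : RTb D r s) (hc : RTc D r) (hd : RTd s) (hneg : ∀ i j, i ≠ j → r j i = D.neg (r i j)) :
    ∃ φ : Matrix.SpecialLinearGroup (Fin (n + 3)) K →* ↥(D.group K), ∀ a b (hab : a ≠ b) c,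
      φ (Matrix.SpecialLinearGroup.transvection hab c) = xc hp (vec D l (r a b)) c := by
  let X : Fin (n + 3) → Fin (n + 3) → K → ↥(D.group K) := fun a b c =>
    ⟨xG hp.inList (r a b) ((s a b : K) * c), xG_mem_group hp.inList _ _⟩
  have hX : ∀ a b, a ≠ b → ∀ c, X a b c = xc hp (vec D l (r a b)) c := by
    intro a b hab c
    apply Subtype.ext
    rw [coe_xc hp (ha a b hab)]
    change xG hp.inList (r a b) ((s a b : K) * c) = _
    rw [cast_sign (hd a b), one_mul]
  have hS := stein (F := K) hp.inList (r := r) (s := s) ha hb hc hd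
  have hSt : SteinRel X := by
    refine ⟨?_, ?_, ?_⟩
    · intro i j hij a b
      apply Subtype.ext
      exact hS.add i j hij a b
    · intro i j k l hij hkl hjk hil a b
      apply Subtype.ext
      exact hS.comm i j k l hij hkl hjk hil a b
    · intro i j k hij hjk hik a b
      apply Subtype.ext
      exact hS.br i j k hij hjk hik a b
  have hH : CTFrame.Torus.HRel X := by
    intro i j hij
    obtain ⟨f, hf1, hf2, -, -, -⟩ := exists_sl hp (K := K) (ha i j hij)
    have e1 : ∀ c, X i j c = f (uu c) := by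
      intro c
      rw [hf1, hX i j hij]
    have e2 : ∀ c, X j i c = f (vv c) := by
      intro c
      rw [hf2, hX j i hij.symm, hneg i j hij, vec_neg hp (ha i j hij)]
    have e3 : ∀ u : K, (hu : u ≠ 0) → CTFrame.Weyl.t X i j u = f (dd u hu) := by
      intro u hu
      unfold CTFrame.Weyl.t CTFrame.Weyl.w
      rw [e1, e1, e2, e2, ← map_mul, ← map_mul, ← map_mul, ← map_mul, ← map_mul]
      congr 1
      apply Subtype.ext
      change (!![1, u; 0, 1] * !![1, 0; -u⁻¹, 1] * !![1, u; 0, 1]) *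
        (!![1, -1; 0, 1] * !![1, 0; -(-1)⁻¹, 1] * !![1, -1; 0, 1]) = !![u, 0; 0, u⁻¹]
      have g1 : (!![1, u; 0, 1] * !![1, 0; -u⁻¹, 1] * !![1, u; 0, 1] :
          Matrix (Fin 2) (Fin 2) K) = !![0, u; -u⁻¹, 0] := by
        rw [Matrix.mul_fin_two, Matrix.mul_fin_two]
        ext a b
        fin_cases a <;> fin_cases b
        · simp [hu]
        · simp [hu]
        · simp
        · simp [hu]
      have g1' : (!![1, -1; 0, 1] * !![1, 0; -(-1)⁻¹, 1] * !![1, -1; 0, 1] :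
          Matrix (Fin 2) (Fin 2) K) = !![0, -1; 1, 0] := by
        rw [Matrix.mul_fin_two, Matrix.mul_fin_two]
        ext a b
        fin_cases a <;> fin_cases b
        · simp
        · simp
        · simp
        · simp
      rw [g1, g1', Matrix.mul_fin_two]
      ext a b
      fin_cases a <;> fin_cases b
      · simp
      · simp
      · simp
      · simp
    intro a b ha0 hb0
    rw [e3 a ha0, e3 b hb0, e3 (a * b) (mul_ne_zero ha0 hb0), ← map_mul]
    congr 1
    apply Subtype.ext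
    change !![a, 0; 0, a⁻¹] * !![b, 0; 0, b⁻¹] = !![a * b, 0; 0, (a * b)⁻¹]
    rw [Matrix.mul_fin_two, mul_inv]
    simp
  obtain ⟨φ, hφ, -⟩ := CTFrame.Hom.exists_hom hSt hH (by simp)
  exact ⟨φ, fun a b hab c => by rw [hφ a b hab c, hX a b hab]⟩

end

/-! ### the chain of long roots of type `A₃` in `F₄` -/

def rL : Fin 4 → Fin 4 → ℕ := ![![0, 25, 26, 32], ![22, 0, 24, 31], ![21, 23, 0, 30], ![15, 16, 17, 0]]

def sL : Fin 4 → Fin 4 → ℤ := ![![1, 1, -1, 1], ![1, 1, 1, 1], ![-1, 1, 1, 1], ![1, 1, 1, 1]]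

theorem rL_check : RTa chevF4 rL ∧ RTb chevF4 rL sL ∧ RTc chevF4 rL ∧ RTd sL ∧
    (∀ i j, i ≠ j → rL j i = chevF4.neg (rL i j)) := by decide +kernel

/-! ### elements of order five in `SL_4(2)` -/

def a0 : SL(4, ZMod 2) := ⟨!![0, 0, 1, 0; 0, 0, 0, 1; 1, 1, 1, 1; 1, 0, 0, 0], by decide +kernel⟩
def a1 : SL(4, ZMod 2) := ⟨!![1, 0, 1, 0; 1, 0, 1, 1; 0, 1, 1, 0; 1, 1, 1, 1], by decide +kernel⟩
def a2 : SL(4, ZMod 2) := ⟨!![0, 1, 0, 0; 1, 1, 0, 1; 0, 1, 0, 1; 1, 1, 1, 0], by decide +kernel⟩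
def b0 : SL(4, ZMod 2) := ⟨!![1, 1, 1, 1; 1, 0, 1, 0; 0, 1, 1, 1; 1, 0, 1, 1], by decide +kernel⟩
def b1 : SL(4, ZMod 2) := ⟨!![1, 1, 0, 0; 1, 0, 0, 1; 1, 0, 1, 0; 0, 1, 1, 1], by decide +kernel⟩

theorem fives : a0 ^ 5 = 1 ∧ a1 ^ 5 = 1 ∧ a2 ^ 5 = 1 ∧ b0 ^ 5 = 1 ∧ b1 ^ 5 = 1 := by decide +kernel

def tv (a b : Fin 4) (hab : a ≠ b) : SL(4, ZMod 2) := Matrix.SpecialLinearGroup.transvection hab 1

theorem prods : tv 1 2 (by decide) * (tv 2 1 (by decide) * tv 1 2 (by decide)) = a0 * a1 * a2 ∧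
    tv 1 2 (by decide) * (tv 1 2 (by decide) * (tv 2 1 (by decide) * tv 1 2 (by decide))) = b0 * b1 := by
  decide +kernel

section

variable {K : Type u} [Field K] [CharP K 2]

theorem isPE_five {G : Type*} [Group G] {g : G} (h : g ^ 5 = 1) : IsPE 5 g := ⟨1, by rw [pow_one]; exact h⟩

theorem up_nn (t : K) : (up t * nn 1 : SL(2, K)) = uu t * (uu 1 * (vv 1 * uu 1)) := by
  have h2 : (1 : K) + 1 = 0 := CharTwo.add_self_eq_zero 1
  apply Subtype.ext
  change !![1, t; 0, 1] * !![0, ((1 : Kˣ) : K); -(((1 : Kˣ)⁻¹ : Kˣ) : K), 0] =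
    !![1, t; 0, 1] * (!![1, 1; 0, 1] * (!![1, 0; 1, 1] * !![1, 1; 0, 1]))
  congr 1
  rw [inv_one, Units.val_one, Matrix.mul_fin_two, Matrix.mul_fin_two]
  ext i j
  fin_cases i <;> fin_cases j <;> simp [h2]
  exact CharTwo.neg_eq 1

theorem sl_up_nn {D : ChevalleyDatum} {l : ℕ} {M : CoxeterMatrix (Fin l)} (hp : IsType D l M) (i : Fin l) (t : K) :
    sl hp i (up t * nn 1) = xc hp (sr i) t * (xc hp (sr i) 1 * (xc hp (-sr i) 1 * xc hp (sr i) 1)) := by
  rw [up_nn, map_mul, map_mul, map_mul, sl_uu, sl_uu, sl_vv]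

/-- **long nodes** -/
theorem pe_long (hK : ∀ x : K, x = 0 ∨ x = 1) (t : K) : PE 5 3 (sl Nodes.KindF.isType 3 (up t * nn 1)) := by
  obtain ⟨ha, hb, hc, hd, hn⟩ := rL_check
  obtain ⟨φ, hφ⟩ := exists_hom_two (n := 1) Nodes.KindF.isType (K := K) ha hb hc hd hn
  let f : ZMod 2 →+* K := ZMod.castHom (dvd_refl 2) K
  let ψ : SL(4, ZMod 2) →* SL(4, K) := Matrix.SpecialLinearGroup.map f
  have hψ : ∀ a b (hab : a ≠ b), ψ (tv a b hab) = Matrix.SpecialLinearGroup.transvection hab 1 := by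
    intro a b hab
    apply Subtype.ext
    change ((Matrix.transvection a b (1 : ZMod 2)).map f) = Matrix.transvection a b (1 : K)
    unfold Matrix.transvection
    ext i j
    simp only [Matrix.map_apply, Matrix.add_apply, map_add, Matrix.one_apply, Matrix.single_apply]
    split_ifs <;> simp
  have h3 : vec chevF4 4 24 = sr 3 := vec_simple Nodes.KindF.isType (3 : Fin 4)
  have h3' : vec chevF4 4 23 = -sr 3 := by
    rw [← h3]
    exact vec_neg Nodes.KindF.isType (r := 24) (by decide +kernel)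
  have e1 : xc Nodes.KindF.isType (sr 3) (1 : K) = φ (ψ (tv 1 2 (by decide))) := by
    rw [hψ, hφ, ← h3]
    rfl
  have e2 : xc Nodes.KindF.isType (-sr 3) (1 : K) = φ (ψ (tv 2 1 (by decide))) := by
    rw [hψ, hφ, ← h3']
    rfl
  obtain ⟨g0, g1, g2, k0, k1⟩ := fives
  rw [sl_up_nn, e1, e2]
  rcases hK t with rfl | rfl
  · have e3 : xc Nodes.KindF.isType (sr 3) (0 : K) = 1 := by
      rw [← sl_uu]
      have : uu (0 : K) = 1 := by
        apply Subtype.ext
        exact Matrix.one_fin_two.symm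
      rw [this, map_one]
    rw [e3, one_mul, ← map_mul, ← map_mul, ← map_mul, ← map_mul, prods.1]
    refine PE.map (PE.map ?_ ψ) φ
    exact ((isPE_five g0).pe.mul (isPE_five g1).pe).mul (isPE_five g2).pe
  · rw [e1, ← map_mul, ← map_mul, ← map_mul, ← map_mul, ← map_mul, ← map_mul, prods.2]
    refine PE.map (PE.map ?_ ψ) φ
    exact PE.mono ((isPE_five k0).pe.mul (isPE_five k1).pe) (by norm_num)

/-- **short nodes** -/
theorem pe_short (hK : ∀ x : K, x = 0 ∨ x = 1) (t : K) : PE 5 3 (sl Nodes.KindF.isType 0 (up t * nn 1)) := by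
  have hperf : ∀ x : K, ∃ y : K, y ^ 2 = x := by
    intro x
    rcases hK x with rfl | rfl
    · exact ⟨0, by simp⟩
    · exact ⟨1, by simp⟩
  obtain ⟨α, hα⟩ := Cfsg.Agent.S1098.result (K := K) hperf (chevF4, [(3, 2), (2, 2), (1, 1), (0, 1)]) (by simp)
  have h3 : vec chevF4 4 24 = sr 3 := vec_simple Nodes.KindF.isType (3 : Fin 4)
  have h3' : vec chevF4 4 23 = -sr 3 := by
    rw [← h3]
    exact vec_neg Nodes.KindF.isType (r := 24) (by decide +kernel)
  have h0 : vec chevF4 4 33 = sr 0 := vec_simple Nodes.KindF.isType (0 : Fin 4)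
  have h0' : vec chevF4 4 14 = -sr 0 := by
    rw [← h0]
    exact vec_neg Nodes.KindF.isType (r := 33) (by decide +kernel)
  have e1 : ∀ c : K, α (xc Nodes.KindF.isType (sr 3) c) = xc Nodes.KindF.isType (sr 0) c := by
    intro c
    rw [← h3, ← h0]
    apply Subtype.ext
    rw [coe_xc Nodes.KindF.isType (r := 33) (by decide +kernel)]
    have h4 := (hα (xc Nodes.KindF.isType (vec chevF4 4 24) c) 3 c (by decide)).1 (by
      rw [coe_xc Nodes.KindF.isType (r := 24) (by decide +kernel)]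
      rfl)
    apply Units.ext
    refine h4.trans ?_
    show chevF4.x K 33 (c ^ 1) = chevF4.x K 33 c
    rw [pow_one]
  have e2 : ∀ c : K, α (xc Nodes.KindF.isType (-sr 3) c) = xc Nodes.KindF.isType (-sr 0) c := by
    intro c
    rw [← h3', ← h0']
    apply Subtype.ext
    rw [coe_xc Nodes.KindF.isType (r := 14) (by decide +kernel)]
    have h4 := (hα (xc Nodes.KindF.isType (vec chevF4 4 23) c) 3 c (by decide)).2 (by
      rw [coe_xc Nodes.KindF.isType (r := 23) (by decide +kernel)]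
      rfl)
    apply Units.ext
    refine h4.trans ?_
    show chevF4.x K 14 (c ^ 1) = chevF4.x K 14 c
    rw [pow_one]
  have h5 := PE.map (pe_long hK t) α.toMonoidHom
  have h6 : α.toMonoidHom (sl Nodes.KindF.isType 3 (up t * nn 1)) = sl Nodes.KindF.isType 0 (up t * nn 1) := by
    show α (sl Nodes.KindF.isType 3 (up t * nn 1)) = _
    rw [sl_up_nn, sl_up_nn, map_mul, map_mul, map_mul, e1, e1, e2]
  rwa [h6] at h5

end

end Cfsg.Agent.H65.DP
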